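import Mathlib
import Cfsg.Agent.Lib.PiClasses.Nil
import Cfsg.Agent.Lib.Nilpotent.PClasses
import Cfsg.Agent.Lib.Transfer.Frobenius
import Cfsg.Agent.Lib.Transfer.Basic

/-!
# Many classes of `2`-elements force a normal `2`-complement

If `G` has no normal `2`-complement, the number of classes of `2`-elements is at most half the
order of a Sylow `2`-subgroup.
-/

set_option autoImplicit false

open Pointwise

namespace Cfsg.Agent.Lib.PiClasses

universe u

section twonil

open scoped commutatorElement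
open Cfsg.Agent.Lib.Nilpotent.PClasses Cfsg.Agent.Lib.Transfer.Frobenius

variable {X : Type u} [Group X] [Finite X]

/-- A power of an odd-order element outside `C`, of odd prime power order, lying outside `C`. -/
theorem exists_primary_power (C : Subgroup X) : ∀ (n : ℕ) (g : X), orderOf g = n →
    Nat.Coprime n 2 → g ∉ C → ∃ (r a : ℕ) (k : ℕ), r.Prime ∧ r ≠ 2 ∧ orderOf (g ^ k) = r ^ a ∧
      g ^ k ∉ C := by
  intro n
  induction n using Nat.strong_induction_on with
  | _ n ih =>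
  intro g hg hn hgC
  have hn0 : n ≠ 0 := by
    rw [← hg]
    exact (orderOf_pos g).ne'
  have hn1 : n ≠ 1 := by
    intro h
    rw [h, orderOf_eq_one_iff] at hg
    exact hgC (hg ▸ C.one_mem)
  set r := n.minFac with hr
  have hrp : r.Prime := Nat.minFac_prime hn1
  have hrn : r ∣ n := Nat.minFac_dvd n
  have hr2 : r ≠ 2 := by
    intro h
    rw [h] at hrn
    have := Nat.Coprime.eq_one_of_dvd hn.symm hrn
    omega
  obtain ⟨a, w, hw, hnw⟩ := Nat.exists_eq_pow_mul_and_not_dvd hn0 r hrp.ne_one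
  have ha : a ≠ 0 := by
    rintro rfl
    rw [pow_zero, one_mul] at hnw
    exact hw (hnw ▸ hrn)
  have hu1 : 1 < r ^ a := Nat.one_lt_pow ha hrp.one_lt
  have hw0 : w ≠ 0 := by
    rintro rfl
    simp at hnw
    exact hn0 hnw
  by_cases hw1 : w = 1
  · refine ⟨r, a, 1, hrp, hr2, ?_, by simpa using hgC⟩
    rw [pow_one, hg, hnw, hw1, mul_one]
  have hcop : Nat.Coprime (r ^ a) w :=
    Nat.Coprime.pow_left _ ((Nat.Prime.coprime_iff_not_dvd hrp).mpr hw)
  have hord1 : orderOf (g ^ (r ^ a)) = w := by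
    rw [orderOf_pow' g (pow_pos hrp.pos a).ne', hg, hnw]
    have h3 : (r ^ a * w).gcd (r ^ a) = r ^ a := Nat.gcd_eq_right (dvd_mul_right _ _)
    rw [h3]
    exact Nat.mul_div_cancel_left _ (pow_pos hrp.pos a)
  have hord2 : orderOf (g ^ w) = r ^ a := by
    rw [orderOf_pow' g hw0, hg, hnw]
    have h3 : (r ^ a * w).gcd w = w := Nat.gcd_eq_right (dvd_mul_left _ _)
    rw [h3]
    exact Nat.mul_div_cancel _ (Nat.pos_of_ne_zero hw0)
  by_cases h1 : g ^ w ∈ C
  · by_cases h2 : g ^ (r ^ a) ∈ C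
    · exfalso
      apply hgC
      have hb := Nat.gcd_eq_gcd_ab (r ^ a) w
      rw [hcop] at hb
      have hg1 : g = (g ^ (r ^ a)) ^ (Nat.gcdA (r ^ a) w) * (g ^ w) ^ (Nat.gcdB (r ^ a) w) := by
        rw [← zpow_natCast, ← zpow_natCast, ← zpow_mul, ← zpow_mul, ← zpow_add, ← hb]
        simp
      rw [hg1]
      exact C.mul_mem (C.zpow_mem h2 _) (C.zpow_mem h1 _)
    · have hlt : w < n := by
        rw [hnw]
        exact lt_mul_of_one_lt_left (Nat.pos_of_ne_zero hw0) hu1
      have hwc : Nat.Coprime w 2 := by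
        have : w ∣ n := hnw ▸ dvd_mul_left _ _
        exact Nat.Coprime.coprime_dvd_left this hn
      obtain ⟨r', a', k', h3, h4, h5, h6⟩ := ih w hlt _ hord1 hwc h2
      refine ⟨r', a', r ^ a * k', h3, h4, ?_, ?_⟩
      · rw [pow_mul]
        exact h5
      · rw [pow_mul]
        exact h6
  · exact ⟨r, a, w, hrp, hr2, hord2, h1⟩

/-- Representatives of classes of noncentral elements under the conjugation by `P`. -/
theorem exists_reps_noncentral (P : Subgroup X) : ∀ (n : ℕ) (W : Finset X), W.card = n →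
    (∀ x ∈ W, ∀ w ∈ P, w * x * w⁻¹ ∈ W) → (∀ x ∈ W, ∃ w ∈ P, w * x ≠ x * w) →
    ∃ Y ⊆ W, (∀ x ∈ W, ∃ y ∈ Y, IsConj x y) ∧ 2 * Y.card ≤ W.card := by
  classical
  intro n
  induction n using Nat.strong_induction_on with
  | _ n ih =>
  intro W hWn hclosed hfix
  by_cases hW : W = ∅
  · exact ⟨∅, by simp, by simp [hW], by simp⟩
  obtain ⟨x, hx⟩ := Finset.nonempty_iff_ne_empty.mpr hW
  let O : Finset X := W.filter (fun y => ∃ w ∈ P, w * x * w⁻¹ = y)
  have hOW : O ⊆ W := Finset.filter_subset _ _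
  have hxO : x ∈ O := Finset.mem_filter.mpr ⟨hx, 1, P.one_mem, by simp⟩
  obtain ⟨w₀, hw₀, hne⟩ := hfix x hx
  have hx₂ : w₀ * x * w₀⁻¹ ∈ O := Finset.mem_filter.mpr ⟨hclosed x hx w₀ hw₀, w₀, hw₀, rfl⟩
  have hne' : w₀ * x * w₀⁻¹ ≠ x := by
    intro h
    apply hne
    calc w₀ * x = w₀ * x * w₀⁻¹ * w₀ := by group
      _ = x * w₀ := by rw [h]
  have hO2 : 2 ≤ O.card := by
    have : ({x, w₀ * x * w₀⁻¹} : Finset X) ⊆ O := by
      intro y hy
      rcases Finset.mem_insert.mp hy with rfl | hy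
      · exact hxO
      · rw [Finset.mem_singleton.mp hy]
        exact hx₂
    have h2 := Finset.card_le_card this
    rwa [Finset.card_pair hne'.symm] at h2
  let W' : Finset X := W \ O
  have hW'card : W'.card + O.card = W.card := Finset.card_sdiff_add_card_eq_card hOW
  have hlt : W'.card < n := by omega
  have hclosed' : ∀ y ∈ W', ∀ w ∈ P, w * y * w⁻¹ ∈ W' := by
    intro y hy w hw
    obtain ⟨hyW, hyO⟩ := Finset.mem_sdiff.mp hy
    refine Finset.mem_sdiff.mpr ⟨hclosed y hyW w hw, fun h => hyO ?_⟩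
    obtain ⟨-, u, hu, hue⟩ := Finset.mem_filter.mp h
    refine Finset.mem_filter.mpr ⟨hyW, w⁻¹ * u, P.mul_mem (P.inv_mem hw) hu, ?_⟩
    calc w⁻¹ * u * x * (w⁻¹ * u)⁻¹ = w⁻¹ * (u * x * u⁻¹) * w := by group
      _ = w⁻¹ * (w * y * w⁻¹) * w := by rw [hue]
      _ = y := by group
  obtain ⟨Y', hY'W, hY'cov, hY'card⟩ := ih _ hlt W' rfl hclosed' (fun y hy =>
    hfix y (Finset.mem_sdiff.mp hy).1)
  refine ⟨insert x Y', ?_, ?_, ?_⟩
  · intro y hy
    rcases Finset.mem_insert.mp hy with rfl | hy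
    · exact hx
    · exact (Finset.mem_sdiff.mp (hY'W hy)).1
  · intro y hy
    by_cases hyO : y ∈ O
    · obtain ⟨-, u, hu, hue⟩ := Finset.mem_filter.mp hyO
      refine ⟨x, Finset.mem_insert_self _ _, ?_⟩
      rw [isConj_comm, isConj_iff]
      exact ⟨u, hue⟩
    · obtain ⟨z, hz, hc⟩ := hY'cov y (Finset.mem_sdiff.mpr ⟨hy, hyO⟩)
      exact ⟨z, Finset.mem_insert_of_mem hz, hc⟩
  · have hnot : x ∉ Y' := fun h => (Finset.mem_sdiff.mp (hY'W h)).2 hxO
    rw [Finset.card_insert_of_notMem hnot]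
    omega

/-- A cover of the `2`-elements bounds the number of their classes. -/
theorem kP_le_of_cover {p : ℕ} (Y : Finset X)
    (h : ∀ u : X, (∃ k : ℕ, orderOf u = p ^ k) → ∃ y ∈ Y, IsConj u y) : kP p X ≤ Y.card := by
  classical
  have hex : ∀ c : {c : ConjClasses X // ∀ x ∈ c.carrier, ∃ k : ℕ, orderOf x = p ^ k},
      ∃ y : Y, ConjClasses.mk (y : X) = c.1 := by
    rintro ⟨c, hc⟩
    obtain ⟨x, rfl⟩ := ConjClasses.mk_surjective c
    obtain ⟨y, hy, hxy⟩ := h x (hc x ConjClasses.mem_carrier_mk)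
    exact ⟨⟨y, hy⟩, (ConjClasses.mk_eq_mk_iff_isConj.mpr hxy).symm⟩
  choose F hF using hex
  have hinj : Function.Injective F := by
    intro c d hcd
    apply Subtype.ext
    rw [← hF c, ← hF d, hcd]
  have := Nat.card_le_card_of_injective F hinj
  simpa [kP, Nat.card_eq_fintype_card] using this

/-- The counting step: a normal subgroup `Q` of `P₁` containing the centre of `P₁`, and an
odd prime power order element normalizing but not centralizing `Q`. -/
theorem two_mul_kP_le_of_action (P₁ : Sylow 2 X) {Q : Subgroup X} (hQP : Q ≤ P₁)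
    (hPN : (P₁ : Subgroup X) ≤ Subgroup.normalizer (Q : Set X))
    (hZ : ∀ z ∈ (P₁ : Subgroup X), (∀ w ∈ (P₁ : Subgroup X), w * z = z * w) → z ∈ Q)
    {x : X} {r a : ℕ} (hr : r.Prime) (hr2 : r ≠ 2) (hx : orderOf x = r ^ a)
    (hxN : x ∈ Subgroup.normalizer (Q : Set X)) (hxC : x ∉ Subgroup.centralizer (Q : Set X)) :
    2 * kP 2 X ≤ Nat.card (P₁ : Subgroup X) := by
  classical
  haveI : Fact r.Prime := ⟨hr⟩
  have hr3 : 3 ≤ r := by
    have := hr.two_le
    omega
  have hQp : IsPGroup 2 Q := P₁.isPGroup'.to_le hQP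
  have hrQ : ¬ r ∣ Nat.card Q := by
    obtain ⟨e, he⟩ := IsPGroup.iff_card.mp hQp
    rw [he]
    intro h
    have := (Nat.prime_dvd_prime_iff_eq hr Nat.prime_two).mp (hr.dvd_of_dvd_pow h)
    exact hr2 this
  have hvA : ∀ u ∈ Q, x * u * x⁻¹ ∈ Q := fun u hu =>
    (Subgroup.mem_normalizer_iff.mp hxN u).mp hu
  have hne : ∃ b ∈ Q, ¬ x * b = b * x := by
    by_contra hcon
    push Not at hcon
    apply hxC
    rw [Subgroup.mem_centralizer_iff]
    intro b hb
    exact (hcon b hb).symm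
  have hC := succ_mul_card_le hx hvA hrQ hne
  obtain ⟨Y₀, hY₀Q, hY₀cov, -, hY₀F, hY₀3⟩ := exists_reps_subgroup Q x hvA 3 (by
    intro d hd h1
    rw [hx] at hd
    exact hr3.trans (le_of_dvd_ne_one_of_pow hr hd h1))
  set c := Nat.card (Q ⊓ Subgroup.centralizer ({x} : Set X) : Subgroup X) with hc
  have hY₀card : 2 * Y₀.card ≤ Nat.card Q := by
    have h1 := Finset.card_filter_add_card_filter_not (s := Y₀) (fun u => x * u = u * x)
    rw [hY₀F] at h1
    have h2 : 4 * c ≤ Nat.card Q := by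
      have : 4 * c ≤ (r + 1) * c := Nat.mul_le_mul_right _ (by omega)
      omega
    omega
  -- the part outside `Q`
  let W : Finset X := fs (P₁ : Subgroup X) \ fs Q
  have hWcl : ∀ u ∈ W, ∀ w ∈ (P₁ : Subgroup X), w * u * w⁻¹ ∈ W := by
    intro u hu w hw
    obtain ⟨hu1, hu2⟩ := Finset.mem_sdiff.mp hu
    refine Finset.mem_sdiff.mpr ⟨mem_fs.mpr ?_, fun h => hu2 (mem_fs.mpr ?_)⟩
    · exact Subgroup.mul_mem _ (Subgroup.mul_mem _ hw (mem_fs.mp hu1)) (Subgroup.inv_mem _ hw)
    · have h1 := mem_fs.mp h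
      exact (Subgroup.mem_normalizer_iff.mp (hPN hw) u).mpr h1
  have hWfix : ∀ u ∈ W, ∃ w ∈ (P₁ : Subgroup X), w * u ≠ u * w := by
    intro u hu
    obtain ⟨hu1, hu2⟩ := Finset.mem_sdiff.mp hu
    by_contra hcon
    push Not at hcon
    exact hu2 (mem_fs.mpr (hZ u (mem_fs.mp hu1) hcon))
  obtain ⟨Y₁, -, hY₁cov, hY₁card⟩ := exists_reps_noncentral (P₁ : Subgroup X) _ W rfl hWcl hWfix
  have hWcard : W.card + Nat.card Q = Nat.card (P₁ : Subgroup X) := by
    have h1 : fs Q ⊆ fs (P₁ : Subgroup X) := fun u hu => mem_fs.mpr (hQP (mem_fs.mp hu))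
    have h2 := Finset.card_sdiff_add_card_eq_card h1
    rwa [card_fs, card_fs] at h2
  have hle := kP_le_of_cover (p := 2) (Y₀ ∪ Y₁) (by
    intro u hu
    have hup : IsSElt {2} u := by
      obtain ⟨k, hk⟩ := hu
      intro s hs hd
      rw [hk] at hd
      have := (Nat.prime_dvd_prime_iff_eq hs Nat.prime_two).mp (hs.dvd_of_dvd_pow hd)
      simp [this]
    obtain ⟨g, hg⟩ := exists_conj_mem_sylow P₁ hup
    have hc1 : IsConj u (g * u * g⁻¹) := isConj_iff.mpr ⟨g, rfl⟩
    by_cases hgQ : g * u * g⁻¹ ∈ Q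
    · obtain ⟨i, hi⟩ := hY₀cov _ hgQ
      exact ⟨_, Finset.mem_union_left _ hi, hc1.trans (isConj_iff.mpr ⟨x ^ i, rfl⟩)⟩
    · have hmem : g * u * g⁻¹ ∈ W :=
        Finset.mem_sdiff.mpr ⟨mem_fs.mpr hg, fun h => hgQ (mem_fs.mp h)⟩
      obtain ⟨y, hy, hc2⟩ := hY₁cov _ hmem
      exact ⟨y, Finset.mem_union_right _ hy, hc1.trans hc2⟩)
  have hun := Finset.card_union_le Y₀ Y₁
  omega

/-- Maximality: every `2`-subgroup of `C(Q)` lies in `Q`. -/
theorem le_of_maximal {Q : Subgroup X} {g : X} (hQ : IsPGroup 2 Q)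
    (hg : g ∈ Subgroup.normalizer (Q : Set X)) (hodd : (orderOf g).Coprime 2)
    (hgC : g ∉ Subgroup.centralizer (Q : Set X))
    (hmax : ∀ (Q' : Subgroup X) (g' : X), IsPGroup 2 Q' → g' ∈ Subgroup.normalizer (Q' : Set X) →
      (orderOf g').Coprime 2 → g' ∉ Subgroup.centralizer (Q' : Set X) → Nat.card Q' ≤ Nat.card Q)
    {U : Subgroup X} (hU : IsPGroup 2 U) (hUC : U ≤ Subgroup.centralizer (Q : Set X)) : U ≤ Q := by
  classical
  have hS1 : ∀ r ∈ ({2} : Finset ℕ), r.Prime := by simpa using Nat.prime_two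
  set Cs := Subgroup.centralizer (Q : Set X) with hCs
  obtain ⟨R, hR⟩ := (hU.comap_subtype (K := Cs)).exists_le_sylow
  set S₀ : Subgroup X := (R : Subgroup Cs).map Cs.subtype with hS₀
  have hS₀Cs : S₀ ≤ Cs := by
    rintro _ ⟨y, -, rfl⟩
    exact y.2
  have hUS₀ : U ≤ S₀ := by
    intro u hu
    exact ⟨⟨u, hUC hu⟩, hR hu, rfl⟩
  have hS₀p : IsPGroup 2 S₀ := R.isPGroup'.map _
  have hS₀card : Nat.card S₀ = mS {2} Cs := by
    rw [← card_sylow_eq_mS R]
    exact (Nat.card_congr (Subgroup.equivMapOfInjective (R : Subgroup Cs) Cs.subtype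
      Subtype.val_injective).toEquiv).symm
  have hgCs : ∀ y ∈ Cs, g * y * g⁻¹ ∈ Cs := by
    intro y hy
    rw [hCs, Subgroup.mem_centralizer_iff]
    intro a ha
    have h3 : g⁻¹ * a * g ∈ Q := by
      have := (Subgroup.mem_normalizer_iff.mp (Subgroup.inv_mem _ hg) a).mp ha
      simpa using this
    have h4 := Subgroup.mem_centralizer_iff.mp hy _ h3
    calc a * (g * y * g⁻¹) = g * ((g⁻¹ * a * g) * y) * g⁻¹ := by group
      _ = g * (y * (g⁻¹ * a * g)) * g⁻¹ := by rw [h4]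
      _ = _ := by group
  set S₀' : Subgroup X := S₀.map (MulAut.conj g).toMonoidHom with hS₀'
  have hS₀'Cs : S₀' ≤ Cs := by
    rintro _ ⟨y, hy, rfl⟩
    exact hgCs y (hS₀Cs hy)
  have hS₀'card : Nat.card S₀' = mS {2} Cs := by
    rw [← hS₀card]
    exact (Nat.card_congr (Subgroup.equivMapOfInjective S₀ _
      (MulAut.conj g).injective).toEquiv).symm
  obtain ⟨c₁, hc₁, hiff⟩ := exists_conj_subN hS1 hS₀Cs hS₀'Cs hS₀p.isNilpotent hS₀card hS₀'card
  set n := c₁⁻¹ * g with hn
  have hneq : ∀ y, n * y * n⁻¹ = c₁⁻¹ * (g * y * g⁻¹) * c₁ := by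
    intro y
    rw [hn]
    group
  have hnS₀ : ∀ y ∈ S₀, n * y * n⁻¹ ∈ S₀ := by
    intro y hy
    rw [hneq]
    have h3 : g * y * g⁻¹ ∈ S₀' := ⟨y, hy, rfl⟩
    exact (hiff _ (hS₀'Cs h3)).mp h3
  have hnQ : ∀ y ∈ Q, n * y * n⁻¹ = g * y * g⁻¹ := by
    intro y hy
    rw [hneq]
    have h3 : g * y * g⁻¹ ∈ Q := (Subgroup.mem_normalizer_iff.mp hg y).mp hy
    have h4 := Subgroup.mem_centralizer_iff.mp hc₁ _ h3
    calc c₁⁻¹ * (g * y * g⁻¹) * c₁ = c₁⁻¹ * ((g * y * g⁻¹) * c₁) := by group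
      _ = c₁⁻¹ * (c₁ * (g * y * g⁻¹)) := by rw [h4]
      _ = _ := by group
  have hnQ' : ∀ y ∈ Q, n * y * n⁻¹ ∈ Q := by
    intro y hy
    rw [hnQ y hy]
    exact (Subgroup.mem_normalizer_iff.mp hg y).mp hy
  have hpow : ∀ k : ℕ, ∀ y ∈ Q, n ^ k * y * (n ^ k)⁻¹ = g ^ k * y * (g ^ k)⁻¹ := by
    intro k
    induction k with
    | zero =>
      intro y _
      simp
    | succ k hk =>
      intro y hy
      have h1 : n ^ (k + 1) * y * (n ^ (k + 1))⁻¹ = n ^ k * (n * y * n⁻¹) * (n ^ k)⁻¹ := by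
        rw [pow_succ]
        group
      have h2 : g ^ (k + 1) * y * (g ^ (k + 1))⁻¹ = g ^ k * (g * y * g⁻¹) * (g ^ k)⁻¹ := by
        rw [pow_succ]
        group
      rw [h1, h2, hnQ y hy, hk _ ((Subgroup.mem_normalizer_iff.mp hg y).mp hy)]
  set Q₂ : Subgroup X := Q ⊔ S₀ with hQ₂
  have hS₀N : S₀ ≤ Subgroup.normalizer (Q : Set X) := by
    intro y hy
    have hyc := hS₀Cs hy
    apply mem_normalizer_of_conj_mem
    intro q hq
    have h3 := Subgroup.mem_centralizer_iff.mp hyc q hq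
    have h4 : y * q * y⁻¹ = q := by
      rw [← h3]
      group
    rw [h4]
    exact hq
  have hQ₂p : IsPGroup 2 Q₂ := IsPGroup.to_sup_of_normal_left' hQ hS₀p hS₀N
  set b := (orderOf n).factorization 2 with hb
  set n' := n ^ (2 ^ b) with hn'
  have hn0 : orderOf n ≠ 0 := (orderOf_pos n).ne'
  have hord : orderOf n' = ordCompl[2] (orderOf n) := by
    rw [hn', orderOf_pow' n (pow_pos (by norm_num) b).ne']
    have h3 : (orderOf n).gcd (2 ^ b) = 2 ^ b :=
      Nat.gcd_eq_right (Nat.ordProj_dvd _ _)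
    rw [h3]
  have hn'odd : (orderOf n').Coprime 2 := by
    rw [hord]
    exact (Nat.coprime_ordCompl Nat.prime_two hn0).symm
  have hnN : n ∈ Subgroup.normalizer (Q₂ : Set X) := by
    apply mem_normalizer_of_conj_mem
    intro y hy
    rw [hQ₂] at hy
    have hle : Q ⊔ S₀ ≤ Q₂.comap (MulAut.conj n).toMonoidHom := by
      rw [sup_le_iff]
      constructor
      · intro u hu
        rw [Subgroup.mem_comap]
        exact (le_sup_left : Q ≤ Q ⊔ S₀) (hnQ' u hu)
      · intro u hu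
        rw [Subgroup.mem_comap]
        exact (le_sup_right : S₀ ≤ Q ⊔ S₀) (hnS₀ u hu)
    exact hle hy
  have hn'N : n' ∈ Subgroup.normalizer (Q₂ : Set X) := Subgroup.pow_mem _ hnN _
  have hn'C : n' ∉ Subgroup.centralizer (Q₂ : Set X) := by
    intro hcen
    apply hgC
    have hgodd : (2 ^ b).Coprime (orderOf g) := Nat.Coprime.pow_left _ hodd.symm
    obtain ⟨m, hm⟩ := exists_pow_eq_self_of_coprime hgodd
    have hcenQ : g ^ (2 ^ b) ∈ Subgroup.centralizer (Q : Set X) := by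
      rw [Subgroup.mem_centralizer_iff]
      intro y hy
      have h3 := Subgroup.mem_centralizer_iff.mp hcen y
        ((le_sup_left : Q ≤ Q ⊔ S₀) hy)
      have h4 := hpow (2 ^ b) y hy
      have h5 : n ^ (2 ^ b) * y * (n ^ (2 ^ b))⁻¹ = y := by
        have h6 : y * n' = n' * y := h3
        rw [hn'] at h6
        rw [← h6]
        group
      rw [h5] at h4
      calc y * g ^ (2 ^ b) = g ^ (2 ^ b) * y * (g ^ (2 ^ b))⁻¹ * g ^ (2 ^ b) := by
            rw [← h4]
        _ = g ^ (2 ^ b) * y := by group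
    have := Subgroup.pow_mem _ hcenQ m
    rw [hm] at this
    exact this
  have hcardle := hmax Q₂ n' hQ₂p hn'N hn'odd hn'C
  have hQle : Q ≤ Q₂ := le_sup_left
  have hQeq : Q = Q₂ := Subgroup.eq_of_le_of_card_ge hQle hcardle
  intro u hu
  rw [hQeq]
  exact (le_sup_right : S₀ ≤ Q ⊔ S₀) (hUS₀ hu)

/-- **Main estimate**: without a normal `2`-complement, the number of classes of `2`-elements is
at most half the order of a Sylow `2`-subgroup. -/
theorem two_mul_kP_le (hno : ¬ Cfsg.HasNormalPComplement 2 X) (P₀ : Sylow 2 X) :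
    2 * kP 2 X ≤ Nat.card (P₀ : Subgroup X) := by
  classical
  haveI : Fact (Nat.Prime 2) := ⟨Nat.prime_two⟩
  have hnF : ¬ FrobeniusHyp 2 X := fun h => hno (hasNormalPComplement_of_hyp h)
  let F : Set (Subgroup X) := {Q | IsPGroup 2 Q ∧ ∃ g ∈ Subgroup.normalizer (Q : Set X),
    Nat.Coprime (orderOf g) 2 ∧ g ∉ Subgroup.centralizer (Q : Set X)}
  have hne : F.Nonempty := by
    unfold FrobeniusHyp at hnF
    push Not at hnF
    obtain ⟨Q, hQ, g, hg, hodd, hgC⟩ := hnF
    exact ⟨Q, hQ, g, hg, hodd, hgC⟩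
  obtain ⟨Q, ⟨hQp, g, hg, hodd, hgC⟩, hQmax⟩ :=
    Set.exists_max_image F (fun Q : Subgroup X => Nat.card Q) (Set.toFinite _) hne
  have hstar : ∀ {U : Subgroup X}, IsPGroup 2 U → U ≤ Subgroup.centralizer (Q : Set X) → U ≤ Q :=
    fun hU hUC => le_of_maximal hQp hg hodd hgC
      (fun Q' g' hQ' hg' hodd' hgC' => hQmax Q' ⟨hQ', g', hg', hodd', hgC'⟩) hU hUC
  set H := Subgroup.normalizer (Q : Set X) with hH
  obtain ⟨R⟩ : Nonempty (Sylow 2 H) := inferInstance
  set T : Subgroup X := (R : Subgroup H).map H.subtype with hT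
  have hTp : IsPGroup 2 T := R.isPGroup'.map _
  have hTH : T ≤ H := by
    rintro _ ⟨y, -, rfl⟩
    exact y.2
  have hQH : Q ≤ H := Subgroup.le_normalizer
  have hQT : Q ≤ T := by
    haveI hn : (Q.subgroupOf H).Normal := Subgroup.normal_in_normalizer
    have hQp' : IsPGroup 2 (Q.subgroupOf H) := hQp.comap_subtype
    have := hQp'.le_sylow_of_normal R
    intro q hq
    exact ⟨⟨q, hQH hq⟩, this (by simpa [Subgroup.mem_subgroupOf] using hq), rfl⟩
  obtain ⟨P₁, hTP₁⟩ := hTp.exists_le_sylow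
  have hQP₁ : Q ≤ P₁ := hQT.trans hTP₁
  have hcard : Nat.card (P₁ : Subgroup X) = Nat.card (P₀ : Subgroup X) := by
    rw [card_sylow_eq_mS P₁, card_sylow_eq_mS P₀]
  rw [← hcard]
  by_cases hD : 4 ≤ Nat.card (⁅(P₁ : Subgroup X), (P₁ : Subgroup X)⁆ : Subgroup X)
  · have h1 := mul_card_conjClasses_le (P := (P₁ : Subgroup X)) Nat.prime_two P₁.isPGroup'
      (by rw [card_commutator_eq]; simpa using hD)
    have h2 := kP_le_card_conjClasses P₁
    omega
  -- small commutator subgroup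
  set D : Subgroup X := ⁅(P₁ : Subgroup X), (P₁ : Subgroup X)⁆ with hDdef
  have hDP : D ≤ P₁ := by
    rw [hDdef, Subgroup.commutator_le]
    intro a ha b hb
    rw [commutatorElement_def]
    exact Subgroup.mul_mem _ (Subgroup.mul_mem _ (Subgroup.mul_mem _ ha hb)
      (Subgroup.inv_mem _ ha)) (Subgroup.inv_mem _ hb)
  have hDp : IsPGroup 2 D := P₁.isPGroup'.to_le hDP
  have hPN : (P₁ : Subgroup X) ≤ H := by
    by_cases hDQ : D ≤ Q
    · intro y hy
      apply mem_normalizer_of_conj_mem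
      intro q hq
      have h1 : ⁅y, q⁆ ∈ D := Subgroup.commutator_mem_commutator hy (hQP₁ hq)
      have h2 : y * q * y⁻¹ = ⁅y, q⁆ * q := by
        rw [commutatorElement_def]
        group
      rw [h2]
      exact Q.mul_mem (hDQ h1) hq
    · have hDQ' : D ⊓ Q = ⊥ := by
        obtain ⟨e, he⟩ := IsPGroup.iff_card.mp hDp
        have he1 : e ≤ 1 := by
          by_contra hcon
          push Not at hcon
          apply hD
          rw [he]
          calc 4 = 2 ^ 2 := by norm_num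
            _ ≤ 2 ^ e := Nat.pow_le_pow_right (by norm_num) hcon
        rw [eq_bot_iff]
        intro y hy
        by_contra hy1
        rw [Subgroup.mem_bot] at hy1
        apply hDQ
        have hle : D ⊓ Q ≤ D := inf_le_left
        have hcl := Subgroup.card_dvd_of_le hle
        rw [he] at hcl
        have hy1' : 1 < Nat.card (D ⊓ Q : Subgroup X) := by
          rw [Subgroup.one_lt_card_iff_ne_bot]
          intro h
          rw [h] at hy
          exact hy1 ((Subgroup.mem_bot).mp hy)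
        obtain ⟨f, hf, hf'⟩ := (Nat.dvd_prime_pow Nat.prime_two).mp hcl
        have hfe : f = e := by
          rw [hf'] at hy1'
          have hf0 : f ≠ 0 := by
            rintro rfl
            simp at hy1'
          omega
        have hceq : Nat.card (D ⊓ Q : Subgroup X) = Nat.card D := by
          rw [hf', he, hfe]
        have := Subgroup.eq_of_le_of_card_ge hle hceq.ge
        rw [← this]
        exact inf_le_right
      have hTC : T ≤ Subgroup.centralizer (Q : Set X) := by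
        intro t ht
        rw [Subgroup.mem_centralizer_iff]
        intro q hq
        have hq' : q ∈ Q := hq
        have h1 : ⁅t, q⁆ ∈ D :=
          Subgroup.commutator_mem_commutator (hTP₁ ht) (hQP₁ hq')
        have h2 : ⁅t, q⁆ ∈ Q := by
          rw [commutatorElement_def]
          exact Q.mul_mem ((Subgroup.mem_normalizer_iff.mp (hTH ht) q).mp hq') (Q.inv_mem hq')
        have h3 : ⁅t, q⁆ ∈ D ⊓ Q := ⟨h1, h2⟩
        rw [hDQ', Subgroup.mem_bot, commutatorElement_eq_one_iff_mul_comm] at h3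
        exact h3.symm
      have hTQ : T ≤ Q := hstar hTp hTC
      have hTeq : T = Q := le_antisymm hTQ hQT
      by_cases hQtop : Q = P₁
      · intro y hy
        have hy' : y ∈ Q := by
          rw [hQtop]
          exact hy
        exact hQH hy'
      exfalso
      haveI : Group.IsNilpotent (P₁ : Subgroup X) := P₁.isPGroup'.isNilpotent
      have hlt : Q.subgroupOf (P₁ : Subgroup X) < ⊤ := by
        rw [lt_top_iff_ne_top]
        intro h
        apply hQtop
        apply le_antisymm hQP₁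
        intro y hy
        have : (⟨y, hy⟩ : (P₁ : Subgroup X)) ∈ Q.subgroupOf (P₁ : Subgroup X) := by
          rw [h]
          exact Subgroup.mem_top _
        simpa [Subgroup.mem_subgroupOf] using this
      have hcond := Group.normalizerCondition_of_isNilpotent (G := (P₁ : Subgroup X)) _ hlt
      obtain ⟨x, hx1, hx2⟩ := SetLike.exists_of_lt hcond
      have hxH : (x : X) ∈ H := by
        apply mem_normalizer_of_conj_mem
        intro q hq
        have h1 := (Subgroup.mem_normalizer_iff.mp hx1 ⟨q, hQP₁ hq⟩).mp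
          (by simpa [Subgroup.mem_subgroupOf] using hq)
        simpa [Subgroup.mem_subgroupOf] using h1
      have hU : IsPGroup 2 ((((P₁ : Subgroup X) ⊓ H).subgroupOf H : Subgroup H)) :=
        (P₁.isPGroup'.to_le inf_le_left).comap_subtype
      have hRle : (R : Subgroup H) ≤ ((P₁ : Subgroup X) ⊓ H).subgroupOf H := by
        intro y hy
        rw [Subgroup.mem_subgroupOf]
        exact ⟨hTP₁ ⟨y, hy, rfl⟩, y.2⟩
      have hReq := R.is_maximal' hU hRle
      have hmem : (⟨(x : X), hxH⟩ : H) ∈ (R : Subgroup H) := by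
        rw [← hReq, Subgroup.mem_subgroupOf]
        exact ⟨x.2, hxH⟩
      have hxT : (x : X) ∈ T := ⟨_, hmem, rfl⟩
      rw [hTeq] at hxT
      exact hx2 (by simpa [Subgroup.mem_subgroupOf] using hxT)
  have hZ : ∀ z ∈ (P₁ : Subgroup X), (∀ w ∈ (P₁ : Subgroup X), w * z = z * w) → z ∈ Q := by
    intro z hz hcen
    have hle : Subgroup.zpowers z ≤ (P₁ : Subgroup X) := Subgroup.zpowers_le.mpr hz
    have h1 : Subgroup.zpowers z ≤ Q := by
      apply hstar (P₁.isPGroup'.to_le hle)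
      rw [Subgroup.zpowers_le, Subgroup.mem_centralizer_iff]
      intro q hq
      exact (hcen q (hQP₁ hq))
    exact h1 (Subgroup.mem_zpowers z)
  obtain ⟨r, a, k, hr, hr2, hx, hxC⟩ :=
    exists_primary_power (Subgroup.centralizer (Q : Set X)) _ g rfl hodd hgC
  exact two_mul_kP_le_of_action P₁ hQP₁ hPN hZ hr hr2 hx (Subgroup.pow_mem _ hg k) hxC

/-- The forward direction of the `2`-element class count. -/
theorem hasNormalPComplement_of_lt {P₀ : Sylow 2 X}
    (h : Nat.card (P₀ : Subgroup X) < 2 * kP 2 X) : Cfsg.HasNormalPComplement 2 X := by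
  by_contra hno
  have := two_mul_kP_le hno P₀
  omega

/-- With a normal `2`-complement, the `2`-element classes of `X` biject to classes of a Sylow
`2`-subgroup; we only need the inequality. -/
theorem card_conjClasses_le_kP_of_complement {p : ℕ} [Fact p.Prime]
    (hN : Cfsg.HasNormalPComplement p X) (P : Sylow p X) :
    Nat.card (ConjClasses (P : Subgroup X)) ≤ kP p X := by
  classical
  obtain ⟨N, hNn, hc⟩ :=
    Cfsg.Agent.Lib.Transfer.Basic.exists_complement_of_hasNormalPComplement hN P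
  let f : ConjClasses (P : Subgroup X) →
      {c : ConjClasses X // ∀ x ∈ c.carrier, ∃ k : ℕ, orderOf x = p ^ k} :=
    fun c => ⟨ConjClasses.mk ((Quotient.out c : (P : Subgroup X)) : X), by
      intro y hy
      have hconj : IsConj ((Quotient.out c : (P : Subgroup X)) : X) y :=
        (ConjClasses.mk_eq_mk_iff_isConj.1 (ConjClasses.mem_carrier_iff_mk_eq.1 hy)).symm
      obtain ⟨g, rfl⟩ := isConj_iff.1 hconj
      rw [Cfsg.Agent.Lib.Transfer.Basic.orderOf_conj_eq]
      obtain ⟨k, hk⟩ := (IsPGroup.iff_orderOf.1 P.isPGroup') (Quotient.out c : (P : Subgroup X))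
      exact ⟨k, by rw [← hk, Subgroup.orderOf_coe]⟩⟩
  apply Nat.card_le_card_of_injective f
  intro c d hcd
  have h1 := congrArg Subtype.val hcd
  have h2 := ConjClasses.mk_eq_mk_iff_isConj.1 h1
  obtain ⟨g, hg⟩ := isConj_iff.1 h2
  obtain ⟨⟨⟨n, hn⟩, ⟨u, hu⟩⟩, hnu⟩ := hc.2 g
  have hnu' : n * u = g := hnu
  set x : (P : Subgroup X) := Quotient.out c with hx
  set y : (P : Subgroup X) := Quotient.out d with hy
  set w : X := u * (x : X) * u⁻¹ with hw
  have hwP : w ∈ (P : Subgroup X) :=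
    Subgroup.mul_mem _ (Subgroup.mul_mem _ hu x.2) (Subgroup.inv_mem _ hu)
  have h4 : n * w * n⁻¹ = y := by
    rw [← hg, ← hnu', mul_inv_rev, hw]
    group
  have h5 : (y : X) * w⁻¹ ∈ N := by
    rw [← h4]
    have : n * w * n⁻¹ * w⁻¹ = n * (w * n⁻¹ * w⁻¹) := by group
    rw [this]
    exact N.mul_mem hn (hNn.conj_mem _ (N.inv_mem hn) _)
  have h6 : (y : X) * w⁻¹ ∈ (P : Subgroup X) :=
    Subgroup.mul_mem _ y.2 (Subgroup.inv_mem _ hwP)
  have h7 : (y : X) * w⁻¹ = 1 := Subgroup.disjoint_def.1 hc.disjoint h5 h6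
  have h8 : (y : X) = w := mul_inv_eq_one.1 h7
  have h9 : IsConj x y := by
    rw [isConj_iff]
    refine ⟨⟨u, hu⟩, Subtype.ext ?_⟩
    exact h8.symm
  have hc' : c = d := by
    rw [← Quotient.out_eq c, ← Quotient.out_eq d]
    exact ConjClasses.mk_eq_mk_iff_isConj.2 h9
  exact hc'

/-- The frozen form of S3895. -/
theorem card_lt_two_mul_kP_iff (P : Sylow 2 X) :
    Nat.card (P : Subgroup X) < 2 * kP 2 X ↔
      Cfsg.HasNormalPComplement 2 X ∧
        Nat.card (P : Subgroup X) < 2 * Nat.card (ConjClasses (P : Subgroup X)) := by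
  haveI : Fact (Nat.Prime 2) := ⟨Nat.prime_two⟩
  constructor
  · intro h
    refine ⟨hasNormalPComplement_of_lt h, ?_⟩
    have := kP_le_card_conjClasses P
    omega
  · rintro ⟨hN, h⟩
    have := card_conjClasses_le_kP_of_complement hN P
    omega

end twonil

end Cfsg.Agent.Lib.PiClasses
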