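import Mathlib
import Cfsg.Agent.Lib.PiClasses.TwoNil
import Cfsg.Prelude.Def_OddOrderLocal

/-!
# Many classes of `π`-elements, with `2 ∈ π`

If `2 ∈ π` and the number of classes of `π`-elements exceeds half of the `π`-part of the order
of `X`, then `X` has a normal `π`-complement and an abelian Hall `π ∖ {2}`-subgroup.
-/

set_option autoImplicit false

open Pointwise

namespace Cfsg.Agent.Lib.PiClasses

universe u

section pitwo

open scoped commutatorElement
open Cfsg.Agent.Lib.Nilpotent.PClasses Cfsg.Agent.Lib.Transfer.Frobenius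

variable {X : Type u} [Group X] [Finite X]

/-- In a subgroup with at most `2` commutators, odd-order elements are central. -/
theorem commute_of_odd_of_card_commutator_le {H : Subgroup X}
    (hD : Nat.card (⁅H, H⁆ : Subgroup X) ≤ 2) {x y : X} (hx : x ∈ H) (hy : y ∈ H)
    (hodd : (orderOf y).Coprime 2) : x * y = y * x := by
  classical
  set D : Subgroup X := ⁅H, H⁆ with hDd
  have hDH : D ≤ H := by
    rw [hDd, Subgroup.commutator_le]
    intro a ha b hb
    rw [commutatorElement_def]
    exact H.mul_mem (H.mul_mem (H.mul_mem ha hb) (H.inv_mem ha)) (H.inv_mem hb)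
  set c : X := ⁅x, y⁆ with hc
  have hcD : c ∈ D := Subgroup.commutator_mem_commutator hx hy
  by_cases hc1 : c = 1
  · exact commutatorElement_eq_one_iff_mul_comm.mp hc1
  exfalso
  have huniq : ∀ d ∈ D, d ≠ 1 → d = c := by
    intro d hd hd1
    by_contra hne
    have hsub : ({1, c, d} : Finset X) ⊆ fs D := by
      intro z hz
      simp only [Finset.mem_insert, Finset.mem_singleton] at hz
      rcases hz with rfl | rfl | rfl
      · exact mem_fs.mpr D.one_mem
      · exact mem_fs.mpr hcD
      · exact mem_fs.mpr hd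
    have hcard3 : ({1, c, d} : Finset X).card = 3 := by
      rw [Finset.card_insert_of_notMem, Finset.card_pair (Ne.symm hne)]
      simp only [Finset.mem_insert, Finset.mem_singleton, not_or]
      exact ⟨Ne.symm hc1, Ne.symm hd1⟩
    have := Finset.card_le_card hsub
    rw [hcard3, card_fs] at this
    omega
  have hcH : c ∈ H := hDH hcD
  have hconj : y * c * y⁻¹ = c := by
    apply huniq
    · have h1 : ⁅y, c⁆ ∈ D := Subgroup.commutator_mem_commutator hy hcH
      have h2 : y * c * y⁻¹ = ⁅y, c⁆ * c := by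
        rw [commutatorElement_def]
        group
      rw [h2]
      exact D.mul_mem h1 hcD
    · intro h
      apply hc1
      have : c = y⁻¹ * (y * c * y⁻¹) * y := by group
      rw [this, h]
      group
  have hcomm : Commute c y := by
    show c * y = y * c
    calc c * y = y * c * y⁻¹ * y := by rw [hconj]
      _ = y * c := by group
  have hsq : c ^ 2 = 1 := by
    by_contra hne
    have h1 := huniq (c ^ 2) (D.pow_mem hcD 2) hne
    apply hc1
    have h2 : c * c = c := by
      rw [← pow_two]
      exact h1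
    exact mul_left_cancel (a := c) (by rw [h2, mul_one])
  have hxy : x * y * x⁻¹ = c * y := by
    rw [hc, commutatorElement_def]
    group
  have hpow : (x * y * x⁻¹) ^ orderOf y = c ^ orderOf y * y ^ orderOf y := by
    rw [hxy, hcomm.mul_pow]
  rw [conj_pow, pow_orderOf_eq_one, mul_one, mul_inv_cancel, mul_one] at hpow
  obtain ⟨j, hj⟩ := Nat.coprime_two_right.mp hodd
  rw [hj, pow_succ, pow_mul, hsq, one_pow, one_mul] at hpow
  exact hc1 hpow.symm

/-- The odd part of a good Hall `π`-subgroup. -/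
theorem exists_odd_hall {π S' : Finset ℕ} (hπ : ∀ r ∈ π, r.Prime) (hπS : π = insert 2 S')
    (h2 : 2 ∉ S') {H : Subgroup X} (hcard : Nat.card H = mS π X) (hgood : IsGood 2 H) :
    ∃ A P : Subgroup X, Nat.card A = mS S' X ∧ Nat.card P = 2 ^ (Nat.card X).factorization 2 ∧
      IsAb A ∧ ∀ a ∈ A, ∀ b ∈ P, a * b = b * a := by
  classical
  haveI : Fact (Nat.Prime 2) := ⟨Nat.prime_two⟩
  have h2π : 2 ∈ π := by
    rw [hπS]
    exact Finset.mem_insert_self _ _
  have hS' : ∀ r ∈ S', r.Prime := fun r hr => hπ r (by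
    rw [hπS]
    exact Finset.mem_insert_of_mem hr)
  obtain ⟨hnil, hD⟩ := hgood
  haveI := hnil
  obtain ⟨R⟩ : Nonempty (Sylow 2 H) := inferInstance
  haveI hRn : (R : Subgroup H).Normal :=
    Sylow.normal_of_normalizerCondition Group.normalizerCondition_of_isNilpotent R
  have hcop : Nat.Coprime (Nat.card (R : Subgroup H)) (R : Subgroup H).index :=
    R.card_coprime_index
  obtain ⟨A', hA'⟩ := Subgroup.exists_right_complement'_of_coprime hcop
  have hcm := hA'.card_mul_card
  have hRcard : Nat.card (R : Subgroup H) = 2 ^ (Nat.card X).factorization 2 := by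
    rw [Sylow.card_eq_multiplicity, hcard, factorization_mS_of_mem hπ X h2π]
  have hmS : mS π X = 2 ^ (Nat.card X).factorization 2 * mS S' X := by
    rw [hπS, mS_insert 2 S' h2]
  have hA'card : Nat.card A' = mS S' X := by
    rw [hRcard, hcard, hmS] at hcm
    exact Nat.eq_of_mul_eq_mul_left (pow_pos (by norm_num) _) hcm
  refine ⟨A'.map H.subtype, (R : Subgroup H).map H.subtype, ?_, ?_, ?_, ?_⟩
  · rw [← hA'card]
    exact (Nat.card_congr (Subgroup.equivMapOfInjective A' H.subtype
      Subtype.val_injective).toEquiv).symm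
  · rw [← hRcard]
    exact (Nat.card_congr (Subgroup.equivMapOfInjective (R : Subgroup H) H.subtype
      Subtype.val_injective).toEquiv).symm
  · have hodd : ∀ a ∈ A'.map H.subtype, (orderOf a).Coprime 2 := by
      intro a ha
      have h3 : orderOf a ∣ Nat.card (A'.map H.subtype) := Subgroup.orderOf_dvd_natCard _ ha
      have h4 : Nat.card (A'.map H.subtype) = mS S' X := by
        rw [← hA'card]
        exact (Nat.card_congr (Subgroup.equivMapOfInjective A' H.subtype
          Subtype.val_injective).toEquiv).symm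
      rw [h4] at h3
      refine Nat.Coprime.coprime_dvd_left h3 ?_
      refine Nat.Coprime.symm ((Nat.Prime.coprime_iff_not_dvd Nat.prime_two).mpr ?_)
      intro h5
      exact h2 (mem_of_prime_dvd_mS hS' Nat.prime_two h5)
    intro a ha b hb
    have haH : a ∈ H := by
      obtain ⟨a', -, rfl⟩ := ha
      exact a'.2
    have hbH : b ∈ H := by
      obtain ⟨b', -, rfl⟩ := hb
      exact b'.2
    exact commute_of_odd_of_card_commutator_le hD haH hbH (hodd b hb)
  · intro a ha b hb
    have haH : a ∈ H := by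
      obtain ⟨a', -, rfl⟩ := ha
      exact a'.2
    have hbH : b ∈ H := by
      obtain ⟨b', -, rfl⟩ := hb
      exact b'.2
    have h3 : orderOf a ∣ Nat.card (A'.map H.subtype) := Subgroup.orderOf_dvd_natCard _ ha
    have h4 : Nat.card (A'.map H.subtype) = mS S' X := by
      rw [← hA'card]
      exact (Nat.card_congr (Subgroup.equivMapOfInjective A' H.subtype
        Subtype.val_injective).toEquiv).symm
    rw [h4] at h3
    have hodd : (orderOf a).Coprime 2 := by
      refine Nat.Coprime.coprime_dvd_left h3 ?_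
      refine Nat.Coprime.symm ((Nat.Prime.coprime_iff_not_dvd Nat.prime_two).mpr ?_)
      intro h5
      exact h2 (mem_of_prime_dvd_mS hS' Nat.prime_two h5)
    exact (commute_of_odd_of_card_commutator_le hD hbH haH hodd).symm

/-- Representatives of the classes of `2`-elements. -/
theorem exists_reps_two : ∃ Y : Finset X, Y.card ≤ kP 2 X ∧
    ∀ a : X, IsSElt {2} a → ∃ y ∈ Y, IsConj a y := by
  classical
  let T := {c : ConjClasses X // ∀ x ∈ c.carrier, ∃ k : ℕ, orderOf x = 2 ^ k}
  haveI : Fintype T := Fintype.ofFinite _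
  refine ⟨Finset.univ.image (fun c : T => (Quotient.out c.1 : X)), ?_, ?_⟩
  · refine Finset.card_image_le.trans ?_
    rw [kP, Nat.card_eq_fintype_card, Finset.card_univ]
  · intro a ha
    have hordg : ∀ x : X, IsConj a x → ∃ k : ℕ, orderOf x = 2 ^ k := by
      intro x hx
      have h0 := isSElt_of_isConj hx ha
      have h1 : orderOf x = 2 ^ (orderOf x).primeFactorsList.length :=
        Nat.eq_prime_pow_of_unique_prime_dvd (orderOf_pos x).ne' (fun {d} hd hdv => by
          have := h0 d hd hdv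
          simpa using this)
      exact ⟨_, h1⟩
    let c : T := ⟨ConjClasses.mk a, fun x hx => hordg x (by
      exact (ConjClasses.mk_eq_mk_iff_isConj.1 (ConjClasses.mem_carrier_iff_mk_eq.1 hx)).symm)⟩
    refine ⟨Quotient.out c.1, Finset.mem_image.mpr ⟨c, Finset.mem_univ _, rfl⟩, ?_⟩
    have : ConjClasses.mk (Quotient.out c.1) = ConjClasses.mk a := Quotient.out_eq _
    exact (ConjClasses.mk_eq_mk_iff_isConj.1 this).symm

/-- Step 2: many classes of `π`-elements force a normal `2`-complement. -/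
theorem hasNormalPComplement_of_many {π S' : Finset ℕ} (hπ : ∀ r ∈ π, r.Prime)
    (hπS : π = insert 2 S') (h2 : 2 ∉ S') (hk : mS π X < 2 * kS π X) :
    Cfsg.HasNormalPComplement 2 X := by
  classical
  haveI : Fact (Nat.Prime 2) := ⟨Nat.prime_two⟩
  have hS' : ∀ r ∈ S', r.Prime := fun r hr => hπ r (by
    rw [hπS]
    exact Finset.mem_insert_of_mem hr)
  obtain ⟨Y, hYcard, hY⟩ := exists_reps_two (X := X)
  have h1 := kS_le_sum π {2} S' Y (fun x hx => dec_q 2 S' x (by rw [← hπS]; exact hx)) hY
  have hterm : ∀ y ∈ Y, kS S' (Subgroup.centralizer ({y} : Set X)) ≤ mS S' X := by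
    intro y _
    refine (kS_le_mS S' _ hS').trans ?_
    exact Nat.le_of_dvd (mS_pos S' hS' X)
      (mS_dvd_of_dvd S' (Subgroup.card_subgroup_dvd_card _))
  have h3 : kS π X ≤ Y.card * mS S' X := by
    refine h1.trans ?_
    simpa using Finset.sum_le_card_nsmul Y _ _ hterm
  obtain ⟨P₀⟩ : Nonempty (Sylow 2 X) := inferInstance
  apply hasNormalPComplement_of_lt (P₀ := P₀)
  have hP₀ : Nat.card (P₀ : Subgroup X) = 2 ^ (Nat.card X).factorization 2 :=
    Sylow.card_eq_multiplicity P₀
  have hmS : mS π X = 2 ^ (Nat.card X).factorization 2 * mS S' X := by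
    rw [hπS, mS_insert 2 S' h2]
  rw [hP₀]
  have hm' := mS_pos S' hS' X
  have h4 : 2 ^ (Nat.card X).factorization 2 * mS S' X < (2 * Y.card) * mS S' X := by
    calc 2 ^ (Nat.card X).factorization 2 * mS S' X = mS π X := hmS.symm
      _ < 2 * kS π X := hk
      _ ≤ 2 * (Y.card * mS S' X) := Nat.mul_le_mul_left _ h3
      _ = (2 * Y.card) * mS S' X := by ring
  have h5 := Nat.lt_of_mul_lt_mul_right h4
  omega

/-- Step 3: the odd Hall subgroup is self-normalizing up to its centralizer. -/
theorem normalizer_le_centralizer_of_many {π S' : Finset ℕ} (hπ : ∀ r ∈ π, r.Prime)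
    (hπS : π = insert 2 S') (h2 : 2 ∉ S') (hk : mS π X < 2 * kS π X) {A P : Subgroup X}
    (hcardA : Nat.card A = mS S' X) (hcardP : Nat.card P = 2 ^ (Nat.card X).factorization 2)
    (hab : IsAb A) (hcomm : ∀ a ∈ A, ∀ b ∈ P, a * b = b * a) (hN : Cfsg.HasNormalPComplement 2 X) :
    Subgroup.normalizer (A : Set X) ≤ Subgroup.centralizer (A : Set X) := by
  classical
  haveI : Fact (Nat.Prime 2) := ⟨Nat.prime_two⟩
  have hS' : ∀ r ∈ S', r.Prime := fun r hr => hπ r (by
    rw [hπS]
    exact Finset.mem_insert_of_mem hr)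
  intro g hg
  by_contra hgC
  let Ps : Sylow 2 X := Sylow.ofCard P hcardP
  obtain ⟨N, hNn, hc⟩ :=
    Cfsg.Agent.Lib.Transfer.Basic.exists_complement_of_hasNormalPComplement hN Ps
  obtain ⟨⟨⟨n, hn⟩, ⟨u, hu⟩⟩, hnu⟩ := hc.2 g
  have hnu' : n * u = g := hnu
  have hu' : u ∈ P := hu
  have huC : u ∈ Subgroup.centralizer (A : Set X) := by
    rw [Subgroup.mem_centralizer_iff]
    intro a ha
    exact hcomm a ha u hu'
  have hCN : Subgroup.centralizer (A : Set X) ≤ Subgroup.normalizer (A : Set X) := by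
    intro y hy
    apply mem_normalizer_of_conj_mem
    intro a ha
    have h3 := Subgroup.mem_centralizer_iff.mp hy a ha
    have h4 : y * a * y⁻¹ = a := by
      rw [← h3]
      group
    rw [h4]
    exact ha
  have hnN : n ∈ Subgroup.normalizer (A : Set X) := by
    have h3 : n = g * u⁻¹ := by
      rw [← hnu']
      group
    rw [h3]
    exact Subgroup.mul_mem _ hg (Subgroup.inv_mem _ (hCN huC))
  have hnC : n ∉ Subgroup.centralizer (A : Set X) := by
    intro h3
    apply hgC
    rw [← hnu']
    exact Subgroup.mul_mem _ h3 huC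
  have hNcard : Nat.Coprime (Nat.card N) 2 := by
    have hcm := hc.card_mul_card
    have hPs : Nat.card (Ps : Subgroup X) = 2 ^ (Nat.card X).factorization 2 := hcardP
    rw [hPs] at hcm
    refine Nat.Coprime.symm ((Nat.Prime.coprime_iff_not_dvd Nat.prime_two).mpr ?_)
    intro h3
    have h4 := Nat.pow_succ_factorization_not_dvd (Nat.card_pos (α := X)).ne' Nat.prime_two
    apply h4
    have h6 : 2 ^ ((Nat.card X).factorization 2 + 1) ∣
        Nat.card N * 2 ^ (Nat.card X).factorization 2 := by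
      rw [pow_succ, mul_comm (Nat.card N)]
      exact Nat.mul_dvd_mul_left _ h3
    rwa [hcm] at h6
  have hnodd : (orderOf n).Coprime 2 :=
    Nat.Coprime.coprime_dvd_left (Subgroup.orderOf_dvd_natCard N hn) hNcard
  obtain ⟨r, a, k, hr, hr2, hx, hxC⟩ :=
    exists_primary_power (Subgroup.centralizer (A : Set X)) _ n rfl hnodd hnC
  set x := n ^ k with hxdef
  haveI : Fact r.Prime := ⟨hr⟩
  have hxN : x ∈ Subgroup.normalizer (A : Set X) := Subgroup.pow_mem _ hnN k
  have hAN : A ≤ Subgroup.normalizer (A : Set X) := Subgroup.le_normalizer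
  have hnilA : Group.IsNilpotent A := isNilpotent_of_isAb hab
  have hrA : ¬ r ∣ Nat.card A := by
    intro h3
    rw [hcardA] at h3
    have hrS : r ∈ S' := mem_of_prime_dvd_mS hS' hr h3
    have hxS : IsSElt S' x := by
      intro s hs hd
      rw [hx] at hd
      have := (Nat.prime_dvd_prime_iff_eq hs hr).mp (hs.dvd_of_dvd_pow hd)
      rw [this]
      exact hrS
    obtain ⟨c, hc₁, hcx⟩ := exists_conj_mem_subN hS' hAN hnilA
      (card_eq_mS_of_le hS' hAN hcardA) hxN hxS
    have hxA : x ∈ A := by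
      have := (Subgroup.mem_normalizer_iff.mp hc₁ x).mpr hcx
      exact this
    apply hxC
    rw [Subgroup.mem_centralizer_iff]
    intro b hb
    exact hab b hb x hxA
  have hvA : ∀ u ∈ A, x * u * x⁻¹ ∈ A := fun u hu =>
    (Subgroup.mem_normalizer_iff.mp hxN u).mp hu
  have hne : ∃ b ∈ A, ¬ x * b = b * x := by
    by_contra hcon
    push Not at hcon
    apply hxC
    rw [Subgroup.mem_centralizer_iff]
    intro b hb
    exact (hcon b hb).symm
  have hCx := succ_mul_card_le hx hvA hrA hne
  have hr3 : 3 ≤ r := by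
    have := hr.two_le
    omega
  obtain ⟨Y₀, hY₀Q, hY₀cov, -, hY₀F, hY₀3⟩ := exists_reps_subgroup A x hvA 3 (by
    intro d hd h1
    rw [hx] at hd
    exact hr3.trans (le_of_dvd_ne_one_of_pow hr hd h1))
  set c := Nat.card (A ⊓ Subgroup.centralizer ({x} : Set X) : Subgroup X) with hc'
  have hY₀card : 2 * Y₀.card ≤ Nat.card A := by
    have h1 := Finset.card_filter_add_card_filter_not (s := Y₀) (fun u => x * u = u * x)
    rw [hY₀F] at h1
    have h2 : 4 * c ≤ Nat.card A := by
      have : 4 * c ≤ (r + 1) * c := Nat.mul_le_mul_right _ (by omega)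
      omega
    omega
  have h1 := kS_le_sum π S' {2} Y₀ (fun y hy => dec_q' 2 S' y (by rw [← hπS]; exact hy)) (by
    intro b hb
    obtain ⟨g₁, hg₁⟩ := exists_conj_mem_of_hallN hS' hnilA hcardA hb
    obtain ⟨i, hi⟩ := hY₀cov _ hg₁
    refine ⟨_, hi, ?_⟩
    exact (isConj_iff.mpr ⟨g₁, rfl⟩).trans (isConj_iff.mpr ⟨x ^ i, rfl⟩))
  have hS₂ : ∀ r ∈ ({2} : Finset ℕ), r.Prime := by simpa using Nat.prime_two
  have hmS₂ : mS {2} X = 2 ^ (Nat.card X).factorization 2 := by simp [mS]
  have hterm : ∀ y ∈ Y₀, kS {2} (Subgroup.centralizer ({y} : Set X)) ≤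
      2 ^ (Nat.card X).factorization 2 := by
    intro y _
    rw [← hmS₂]
    refine (kS_le_mS {2} _ hS₂).trans ?_
    exact Nat.le_of_dvd (mS_pos {2} hS₂ X)
      (mS_dvd_of_dvd {2} (Subgroup.card_subgroup_dvd_card _))
  have h3 : kS π X ≤ Y₀.card * 2 ^ (Nat.card X).factorization 2 := by
    refine h1.trans ?_
    simpa using Finset.sum_le_card_nsmul Y₀ _ _ hterm
  have hmS : mS π X = 2 ^ (Nat.card X).factorization 2 * mS S' X := by
    rw [hπS, mS_insert 2 S' h2]
  rw [hmS, ← hcardA] at hk
  have h4 : 2 * Y₀.card * 2 ^ (Nat.card X).factorization 2 ≤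
      Nat.card A * 2 ^ (Nat.card X).factorization 2 := Nat.mul_le_mul_right _ hY₀card
  nlinarith

/-- Main theorem. -/
theorem many_pi_classes {π : Finset ℕ} (hπ : ∀ r ∈ π, r.Prime) (h2 : 2 ∈ π)
    (hk : mS π X < 2 * kS π X) :
    (∃ N : Subgroup X, N.Normal ∧ (∀ r : ℕ, r.Prime → r ∣ Nat.card N → r ∉ π) ∧
      ∀ r : ℕ, r.Prime → r ∣ N.index → r ∈ π) ∧
    ∃ H : Subgroup X, Cfsg.IsPiHall ((↑π : Set ℕ) \ {2}) H ∧ IsMulCommutative H := by
  classical
  haveI : Fact (Nat.Prime 2) := ⟨Nat.prime_two⟩
  set S' := π.erase 2 with hS'def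
  have hπS : π = insert 2 S' := (Finset.insert_erase h2).symm
  have h2' : 2 ∉ S' := Finset.notMem_erase 2 π
  have hS' : ∀ r ∈ S', r.Prime := fun r hr => hπ r (Finset.mem_of_mem_erase hr)
  have hex : ∃ H : Subgroup X, Nat.card H = mS π X ∧ IsGood 2 H := by
    by_contra hno
    have h3 := kS_bound_nil π hπ 2 Nat.prime_two (fun r hr => (hπ r hr).two_le) X hno
    have h4 : (mS π X : ℚ) < 2 * kS π X := by exact_mod_cast hk
    have h5 : ((1 : ℚ) / ((2 : ℕ) : ℚ)) * mS π X = mS π X / 2 := by
      push_cast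
      ring
    rw [h5] at h3
    linarith
  obtain ⟨H, hHcard, hHgood⟩ := hex
  obtain ⟨A, P, hcardA, hcardP, hab, hcomm⟩ := exists_odd_hall hπ hπS h2' hHcard hHgood
  have hN := hasNormalPComplement_of_many hπ hπS h2' hk
  have hW := normalizer_le_centralizer_of_many hπ hπS h2' hk hcardA hcardP hab hcomm hN
  obtain ⟨K', hK'n, hK'card, -, -⟩ := exists_hall_complement hS' hab hcardA hW
  let Ps : Sylow 2 X := Sylow.ofCard P hcardP
  obtain ⟨N, hNn, hc⟩ :=
    Cfsg.Agent.Lib.Transfer.Basic.exists_complement_of_hasNormalPComplement hN Ps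
  have hPs : Nat.card (Ps : Subgroup X) = 2 ^ (Nat.card X).factorization 2 := hcardP
  have hNodd : ¬ 2 ∣ Nat.card N := by
    have hcm := hc.card_mul_card
    rw [hPs] at hcm
    intro h3
    have h4 := Nat.pow_succ_factorization_not_dvd (Nat.card_pos (α := X)).ne' Nat.prime_two
    apply h4
    have h6 : 2 ^ ((Nat.card X).factorization 2 + 1) ∣
        Nat.card N * 2 ^ (Nat.card X).factorization 2 := by
      rw [pow_succ, mul_comm (Nat.card N)]
      exact Nat.mul_dvd_mul_left _ h3
    rwa [hcm] at h6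
  have hNindex : N.index = 2 ^ (Nat.card X).factorization 2 := by
    have hcm := hc.card_mul_card
    have h5 := Subgroup.card_mul_index N
    rw [hPs] at hcm
    exact Nat.eq_of_mul_eq_mul_left Nat.card_pos (h5.trans hcm.symm)
  have hK'index : K'.index = mS S' X := by
    have h5 := Subgroup.card_mul_index K'
    rw [← hK'card] at h5
    rw [← hcardA]
    exact Nat.eq_of_mul_eq_mul_left Nat.card_pos h5
  refine ⟨⟨K' ⊓ N, ?_, ?_, ?_⟩, A, ⟨?_, ?_⟩, isMulCommutative_of_isAb hab⟩
  · haveI := hK'n
    haveI := hNn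
    infer_instance
  · intro r hr hd hrπ
    have h3 : r ∣ Nat.card K' := hd.trans (Subgroup.card_dvd_of_le inf_le_left)
    have h4 : r ∣ Nat.card N := hd.trans (Subgroup.card_dvd_of_le inf_le_right)
    by_cases hr2 : r = 2
    · rw [hr2] at h4
      exact hNodd h4
    have hrS : r ∈ S' := Finset.mem_erase.mpr ⟨hr2, hrπ⟩
    have h5 := factorization_mS_of_mem hS' X hrS
    have h6 : (Nat.card X).factorization r =
        (Nat.card K').factorization r + (mS S' X).factorization r := by
      rw [← hK'card, hcardA, Nat.factorization_mul Nat.card_pos.ne' (mS_pos S' hS' X).ne']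
      rfl
    have h7 := (hr.dvd_iff_one_le_factorization Nat.card_pos.ne').mp h3
    omega
  · intro r hr hd
    have hle : K' ⊓ N ≤ K' := inf_le_left
    have h3 := Subgroup.relIndex_mul_index hle
    have h4 : (K' ⊓ N).relIndex K' = N.relIndex K' := by
      rw [inf_comm, Subgroup.inf_relIndex_right]
    have h5 : N.relIndex K' ∣ N.index := by
      haveI := hNn
      exact Subgroup.relIndex_dvd_index_of_normal _ _
    have h6 : (K' ⊓ N).index ∣ N.index * K'.index := by
      rw [← h3, h4]
      exact Nat.mul_dvd_mul_right h5 _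
    have h7 := hd.trans h6
    rcases (Nat.Prime.dvd_mul hr).mp h7 with h8 | h8
    · rw [hNindex] at h8
      have := (Nat.prime_dvd_prime_iff_eq hr Nat.prime_two).mp (hr.dvd_of_dvd_pow h8)
      rw [this]
      exact h2
    · rw [hK'index] at h8
      exact Finset.mem_of_mem_erase (mem_of_prime_dvd_mS hS' hr h8)
  · intro r hr hd
    rw [hcardA] at hd
    have hrS := mem_of_prime_dvd_mS hS' hr hd
    obtain ⟨h3, h4⟩ := Finset.mem_erase.mp hrS
    exact ⟨h4, h3⟩
  · intro r hr hrπ hd
    have h3 : r ∈ π := hrπ.1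
    have h4 : r ≠ 2 := hrπ.2
    have hrS : r ∈ S' := Finset.mem_erase.mpr ⟨h4, h3⟩
    have hcop := coprime_index_of_card_eq_mS hS' A hcardA
    have h5 : r ∣ Nat.card X := hd.trans (Subgroup.index_dvd_card A)
    have h6 : r ∣ mS S' X := prime_dvd_mS hrS hr h5
    rw [← hcardA] at h6
    exact hr.one_lt.ne' (Nat.Coprime.eq_one_of_dvd (Nat.Coprime.coprime_dvd_left h6 hcop |>.symm |> fun h => by
      exact (Nat.Coprime.coprime_dvd_left hd h)) (dvd_refl r))

/-- The statement's count agrees with `kS`. -/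
theorem card_classes_eq_kS (π : Finset ℕ) :
    Nat.card {c : ConjClasses X // ∀ x ∈ c.carrier, ∀ r : ℕ, r.Prime → r ∣ orderOf x → r ∈ π} =
      kS π X := by
  unfold kS
  apply Nat.card_congr
  apply Equiv.subtypeEquivRight
  intro c
  constructor
  · intro h
    obtain ⟨x, rfl⟩ := ConjClasses.mk_surjective c
    exact ⟨x, rfl, h x ConjClasses.mem_carrier_mk⟩
  · rintro ⟨x, rfl, hx⟩ y hy
    have hconj : IsConj x y :=
      (ConjClasses.mk_eq_mk_iff_isConj.1 (ConjClasses.mem_carrier_iff_mk_eq.1 hy)).symm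
    exact isSElt_of_isConj hconj hx

end pitwo

end Cfsg.Agent.Lib.PiClasses
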